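import Cfsg.Agent.N2.Tri.Defs

/-!
# N2 (S3519), class S: the data of an element of prime order (helper85)
-/

set_option autoImplicit false

namespace Cfsg.Agent.N2C.RX

open Subgroup Cfsg.Agent.N2.Tg
open scoped Pointwise

/-- the data of an element `g` of prime order `r` : `g` is conjugate to `g ^ j`; `g = x y`, `x ^ a = y ^ b = 1`, `x` and `y`
generate (if `a ≠ 0`); `sy` : `g` generates a Sylow subgroup of the automorphism group and its normaliser has at least
`M` elements; `sc` : `g` is self-centralising -/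
structure El where
  r : ℕ
  j : ℕ
  M : ℕ
  a : ℕ
  b : ℕ
  sy : Bool
  sc : Bool

/-- the facts -/
def El.Ok (e : El) (N : Type) [Group N] : Prop := e.r.Prime ∧ ∃ g : N, orderOf g = e.r ∧ IsConj g (g ^ e.j) ∧
  (e.a ≠ 0 → ∃ x y : N, x ^ e.a = 1 ∧ y ^ e.b = 1 ∧ x * y = g ∧ closure ({x, y} : Set N) = ⊤) ∧
  (e.sy = true → ¬ e.r ^ 2 ∣ Nat.card (MulAut N) ∧ e.M ≤ Nat.card (normalizer (zpowers g : Set N))) ∧
  (e.sc = true → centralizer {g} ≤ zpowers g)

variable {N : Type} [Group N] {r j M a b : ℕ}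

theorem El.ok_tri (hr : r.Prime) (h : TriJ N a b r j) : El.Ok ⟨r, j, 0, a, b, false, false⟩ N := by
  obtain ⟨x, y, h1, h2, h3, h4, h5⟩ := h
  exact ⟨hr, x * y, h3, h5, fun _ => ⟨x, y, h1, h2, rfl, h4⟩, fun h => absurd h Bool.false_ne_true,
    fun h => absurd h Bool.false_ne_true⟩

theorem El.ok_cj (hr : r.Prime) (h : Cj N r j) : El.Ok ⟨r, j, 0, 0, 0, false, false⟩ N := by
  obtain ⟨g, h1, h2⟩ := h
  exact ⟨hr, g, h1, h2, fun h => absurd rfl h, fun h => absurd h Bool.false_ne_true, fun h => absurd h Bool.false_ne_true⟩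

variable [Finite N]

theorem syl_conj (hr : r.Prime) (hN : ¬ r ^ 2 ∣ Nat.card N) {g h : N} (hg : orderOf g = r) (hh : orderOf h = r) :
    ∃ x : N, zpowers (x * h * x⁻¹) = zpowers g := by
  have : Fact r.Prime := ⟨hr⟩
  have h0 : (Nat.card N).factorization r = 1 := by
    have h1 := (hr.pow_dvd_iff_le_factorization (k := 1) (Nat.card_pos (α := N)).ne').1 (by
      rw [pow_one, ← hg]; exact orderOf_dvd_natCard g)
    have h2 := mt (hr.pow_dvd_iff_le_factorization (k := 2) (Nat.card_pos (α := N)).ne').2 hN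
    omega
  have k : ∀ u : N, orderOf u = r → Nat.card (zpowers u) = r ^ (Nat.card N).factorization r := fun u hu => by
    rw [h0, pow_one, Nat.card_zpowers, hu]
  obtain ⟨x, hx⟩ := MulAction.exists_smul_eq N (Sylow.ofCard _ (k h hh)) (Sylow.ofCard _ (k g hg))
  refine ⟨x, ?_⟩
  have h3 := congrArg (fun P : Sylow r N => (P : Subgroup N)) hx
  simp only [Sylow.coe_subgroup_smul, Sylow.coe_ofCard, Subgroup.pointwise_smul_def] at h3
  exact (MonoidHom.map_zpowers (MulAut.conj x).toMonoidHom h).symm.trans h3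

theorem syl_tr (hr : r.Prime) (hN : ¬ r ^ 2 ∣ Nat.card N) (P : N → Prop) (h1 : ∀ x h, P h → P (x * h * x⁻¹))
    (h2 : ∀ h g, zpowers h = zpowers g → P h → P g) (h : ∃ h, orderOf h = r ∧ P h) {g : N} (hg : orderOf g = r) : P g := by
  obtain ⟨h, h3, h4⟩ := h
  obtain ⟨x, hx⟩ := syl_conj hr hN hg h3
  exact h2 _ _ hx (h1 x h h4)

theorem cj_all (hr : r.Prime) (hN : ¬ r ^ 2 ∣ Nat.card N) (h : Cj N r j) {g : N} (hg : orderOf g = r) : IsConj g (g ^ j) := by
  refine syl_tr hr hN (fun g => IsConj g (g ^ j)) (fun x h h1 => ?_) (fun h g h1 h2 => ?_) h hg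
  · have h2 := (MulAut.conj x).toMonoidHom.map_isConj h1
    rw [map_pow] at h2
    exact h2
  · obtain ⟨k, rfl⟩ : g ∈ zpowers h := h1 ▸ mem_zpowers g
    obtain ⟨y, hy⟩ := isConj_iff.1 h2
    refine isConj_iff.2 ⟨y, ?_⟩
    simp only []
    rw [← conj_zpow, hy, ← zpow_natCast, ← zpow_natCast, ← zpow_mul, ← zpow_mul, mul_comm]

theorem nz_all (hr : r.Prime) (hN : ¬ r ^ 2 ∣ Nat.card N) (h : Nz N r M) {g : N} (hg : orderOf g = r) :
    M ≤ Nat.card (normalizer (zpowers g : Set N)) := by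
  refine syl_tr hr hN (fun g => M ≤ Nat.card (normalizer (zpowers g : Set N))) (fun x h h1 => h1.trans ?_)
    (fun h g h1 h2 => h1 ▸ h2) h hg
  rw [← Subgroup.card_map_of_injective (f := (MulAut.conj x).toMonoidHom) (MulAut.conj x).injective,
    show x * h * x⁻¹ = (MulAut.conj x).toMonoidHom h from rfl, ← MonoidHom.map_zpowers]
  exact Subgroup.card_le_of_le (Subgroup.le_normalizer_map _)

theorem sc_all (hr : r.Prime) (hN : ¬ r ^ 2 ∣ Nat.card N) (h : SC N r) {g : N} (hg : orderOf g = r) :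
    centralizer {g} ≤ zpowers g := by
  refine syl_tr hr hN (fun g => centralizer {g} ≤ zpowers g) (fun x h h1 y hy => ?_) (fun h g h1 h2 y hy => ?_) h hg
  · obtain ⟨k, hk⟩ := h1 (show x⁻¹ * y * x ∈ centralizer {h} from mem_centralizer_singleton_iff.2 (by
      have h2 := mem_centralizer_singleton_iff.1 hy
      calc x⁻¹ * y * x * h = x⁻¹ * (y * (x * h * x⁻¹)) * x := by group
        _ = _ := by rw [h2]; group))
    refine ⟨k, ?_⟩
    simp only [] at hk ⊢
    rw [conj_zpow, hk]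
    group
  · obtain ⟨k, rfl⟩ : h ∈ zpowers g := h1 ▸ mem_zpowers h
    exact h1 ▸ h2 (mem_centralizer_singleton_iff.2 (Commute.zpow_right (mem_centralizer_singleton_iff.1 hy) k).eq)

theorem El.ok_syl {sc : Bool} (hr : r.Prime) (hN : ¬ r ^ 2 ∣ Nat.card N) (hA : ¬ r ^ 2 ∣ Nat.card (MulAut N)) (hj : Cj N r j)
    (ht : a ≠ 0 → Tri N a b r) (hM : M ≠ 0 → Nz N r M) (hs : sc = true → SC N r) : El.Ok ⟨r, j, M, a, b, true, sc⟩ N := by
  obtain ⟨g, h1, h2⟩ : ∃ g : N, orderOf g = r ∧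
      (a ≠ 0 → ∃ x y : N, x ^ a = 1 ∧ y ^ b = 1 ∧ x * y = g ∧ closure ({x, y} : Set N) = ⊤) := by
    by_cases h : a = 0
    · exact hj.imp fun g hg => ⟨hg.1, fun h1 => absurd h h1⟩
    · obtain ⟨x, y, h1, h2, h3, h4⟩ := ht h
      exact ⟨x * y, h3, fun _ => ⟨x, y, h1, h2, rfl, h4⟩⟩
  refine ⟨hr, g, h1, cj_all hr hN hj h1, h2, fun _ => ⟨hA, ?_⟩, fun h => sc_all hr hN (hs h) h1⟩
  by_cases h : M = 0
  · exact h.le.trans (Nat.zero_le _)
  · exact nz_all hr hN (hM h) h1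

/-- the normaliser contains `g` and the conjugating element -/
theorem card_norm_ge {g : N} (hg : orderOf g = r) (h : IsConj g (g ^ j)) :
    r * orderOf (j : ZMod r) ≤ Nat.card (normalizer (zpowers g : Set N)) := by
  obtain ⟨y, hy⟩ := isConj_iff.1 h
  have h1 : y ∈ normalizer (zpowers g : Set N) := by
    refine Subgroup.mem_normalizer_fintype ?_
    rintro _ ⟨k, rfl⟩
    simp only []
    rw [← conj_zpow, hy]
    exact zpow_mem (npow_mem_zpowers g j) k
  let φ := (zpowers g).normalizerMonoidHom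
  have h2 : r ≤ Nat.card φ.ker := by
    rw [← hg, ← Nat.card_zpowers, ← Nat.card_congr (subgroupOfEquivOfLe (le_normalizer (H := zpowers g))).toEquiv,
      normalizerMonoidHom_ker]
    refine Subgroup.card_le_of_le (comap_mono ?_)
    rintro _ ⟨k, rfl⟩ _ ⟨l, rfl⟩
    exact ((Commute.refl g).zpow_zpow l k).eq
  have h3 : ∀ k : ℕ, y ^ k * g * (y ^ k)⁻¹ = g ^ j ^ k := fun k => by
    induction k with
    | zero => simp
    | succ k ih =>
      calc y ^ (k + 1) * g * (y ^ (k + 1))⁻¹ = y * (y ^ k * g * (y ^ k)⁻¹) * y⁻¹ := by group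
        _ = _ := by rw [ih, ← conj_pow, hy, ← pow_mul, ← pow_succ']
  have h4 : orderOf (j : ZMod r) ∣ Nat.card φ.range := by
    refine orderOf_dvd_of_pow_eq_one ?_
    have h5 : φ (⟨y, h1⟩ ^ Nat.card φ.range) = 1 := by
      rw [map_pow]
      exact congrArg Subtype.val (pow_card_eq_one' (x := (⟨φ ⟨y, h1⟩, ⟨_, rfl⟩⟩ : φ.range)))
    have h6 : (⟨y, h1⟩ ^ Nat.card φ.range : normalizer (zpowers g : Set N)) ∈ φ.ker := h5
    rw [normalizerMonoidHom_ker] at h6
    have h7 : g * y ^ Nat.card φ.range = y ^ Nat.card φ.range * g := h6 g (mem_zpowers g)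
    have h8 := h3 (Nat.card φ.range)
    rw [← h7, mul_inv_cancel_right] at h8
    rw [← Nat.cast_pow, ← Nat.cast_one, ZMod.natCast_eq_natCast_iff, ← hg, ← pow_eq_pow_iff_modEq, ← h8, pow_one]
  rw [← φ.ker.card_mul_index, Subgroup.index_ker]
  exact Nat.mul_le_mul h2 (Nat.le_of_dvd Nat.card_pos h4)

end Cfsg.Agent.N2C.RX
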